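import Cfsg.Agent.H25.Cov.Blk
import Cfsg.Agent.ClassicalGeometry.TwoFamilies

/-!
# Commuting elements of prime order (S2499, helper25)

* `even_mv` : `dim (mv x)` is even if `x` preserves a nondegenerate alternating form;
* `comm_dims` : for commuting `x`, `y` of prime orders with exponents `d₁`, `d₂`, `dim V < lcm d₁ d₂`:
  `dim (mv x) + dim (mv y) ≤ dim V`;
* `comm_false`, `comm_false_form`.
-/

set_option autoImplicit false

namespace Cfsg.Agent.H25.Cov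

open Module

variable {F V : Type*} [Field F] [AddCommGroup V] [Module F V]

section alt

variable {B : V →ₗ[F] V →ₗ[F] F}

/-- the commutator space and the fixed space are orthogonal -/
theorem form_fx_mv {x : V ≃ₗ[F] V} (hx : ∀ v w, B (x v) (x w) = B v w) {v w : V} (hv : v ∈ fx x) (hw : w ∈ mv x) :
    B w v = 0 := by
  obtain ⟨u, rfl⟩ := mem_mv.1 hw
  have h1 := hx u v
  rw [mem_fx.1 hv] at h1
  rw [map_sub, LinearMap.sub_apply, h1, sub_self]

/-- **parity** -/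
theorem even_mv [FiniteDimensional F V] (alt : ∀ v, B v v = 0) (nd : ∀ w, (∀ v, B w v = 0) → w = 0)
    {x : V ≃ₗ[F] V} (hxB : ∀ v w, B (x v) (x w) = B v w) {l : ℕ} (hl : (l : F) ≠ 0) (hx : x ^ l = 1) :
    Even (finrank F (mv x)) := by
  let β : LinearMap.BilinForm F (mv x) := B.domRestrict₁₂ (mv x) (mv x)
  obtain ⟨m, hm⟩ := Cfsg.Agent.ClassicalGeometry.TwoFamilies.exists_finrank_eq_ker_add β fun v => alt v
  have hker : LinearMap.ker β = ⊥ := by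
    rw [LinearMap.ker_eq_bot']
    intro w hw
    apply Subtype.ext
    apply nd
    intro v
    have h2 : v ∈ fx x ⊔ mv x := by rw [(isCompl hl hx).sup_eq_top]; trivial
    obtain ⟨a, ha, b, hb, rfl⟩ := Submodule.mem_sup.1 h2
    rw [map_add, form_fx_mv hxB ha w.2, zero_add]
    exact LinearMap.congr_fun hw ⟨b, hb⟩
  rw [hker, finrank_bot, zero_add] at hm
  exact ⟨m, hm⟩

end alt

section comm

variable [Finite F] [FiniteDimensional F V] {x y : V ≃ₗ[F] V} {l₁ l₂ d₁ d₂ : ℕ}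

/-- **commuting elements**, with a bound for the commutator space of `y` -/
theorem comm_dims' (hxy : x * y = y * x) (P₁ : Pr (Nat.card F) l₁ d₁) (P₂ : Pr (Nat.card F) l₂ d₂)
    (hx : x ^ l₁ = 1) (hy : y ^ l₂ = 1) (h : finrank F (mv y) < Nat.lcm d₁ d₂) :
    finrank F (mv x) + finrank F (mv y) ≤ finrank F V := by
  have hxy' : ∀ v, x (y v) = y (x v) := fun v => LinearEquiv.congr_fun hxy v
  have hcx := isCompl (x := x) P₁.cast_ne_zero hx
  have hcy := isCompl (x := y) P₂.cast_ne_zero hy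
  have key : ∀ {z : V ≃ₗ[F] V} {l d : ℕ}, Pr (Nat.card F) l d → z ^ l = 1 → IsCompl (fx z) (mv z) →
      ∀ X : Submodule F V, (∀ v ∈ X, z v ∈ X) → X ≤ mv z → d ∣ finrank F X := by
    intro z l d P hz hc X hX hXm
    have h1 := dvd_dim P hz X hX
    have h2 : X ⊓ fx z = ⊥ := by
      rw [eq_bot_iff]
      rintro v ⟨h3, h4⟩
      have : v ∈ fx z ⊓ mv z := ⟨h4, hXm h3⟩
      rw [hc.inf_eq_bot] at this
      exact this
    rwa [h2, finrank_bot, Nat.sub_zero] at h1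
  have hyx : ∀ v ∈ mv y, x v ∈ mv y := by
    intro v hv
    obtain ⟨w, rfl⟩ := mem_mv.1 hv
    exact mem_mv.2 ⟨x w, by rw [map_sub, hxy' w]⟩
  have hxy2 : ∀ v ∈ mv x, y v ∈ mv x := by
    intro v hv
    obtain ⟨w, rfl⟩ := mem_mv.1 hv
    exact mem_mv.2 ⟨y w, by rw [map_sub, hxy' w]⟩
  have h1 : d₁ ∣ finrank F (mv x ⊓ mv y : Submodule F V) :=
    key P₁ hx hcx _ (fun v hv => ⟨mv_inv hv.1, hyx v hv.2⟩) inf_le_left
  have h2 : d₂ ∣ finrank F (mv x ⊓ mv y : Submodule F V) :=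
    key P₂ hy hcy _ (fun v hv => ⟨hxy2 v hv.1, mv_inv hv.2⟩) inf_le_right
  have h3 := Nat.lcm_dvd h1 h2
  have h4 : finrank F (mv x ⊓ mv y : Submodule F V) ≤ finrank F (mv y) := Submodule.finrank_mono inf_le_right
  have h5 : finrank F (mv x ⊓ mv y : Submodule F V) = 0 := by
    by_contra hne
    have := Nat.le_of_dvd (Nat.pos_of_ne_zero hne) h3
    omega
  have h6 := Submodule.finrank_sup_add_finrank_inf_eq (mv x) (mv y)
  have h7 : finrank F (mv x ⊔ mv y : Submodule F V) ≤ finrank F V := Submodule.finrank_le _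
  omega

/-- **commuting elements** -/
theorem comm_dims (hxy : x * y = y * x) (P₁ : Pr (Nat.card F) l₁ d₁) (P₂ : Pr (Nat.card F) l₂ d₂)
    (hx : x ^ l₁ = 1) (hy : y ^ l₂ = 1) (h : finrank F V < Nat.lcm d₁ d₂) :
    finrank F (mv x) + finrank F (mv y) ≤ finrank F V :=
  comm_dims' hxy P₁ P₂ hx hy (lt_of_le_of_lt (Submodule.finrank_le _) h)

theorem le_mv (P₁ : Pr (Nat.card F) l₁ d₁) (hx : x ^ l₁ = 1) (hx1 : x ≠ 1) : d₁ ≤ finrank F (mv x) := by
  refine Nat.le_of_dvd ?_ (dvd_mv P₁ hx)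
  rw [pos_iff_ne_zero]
  intro h
  exact mv_ne_bot hx1 (Submodule.finrank_eq_zero.1 h)

theorem comm_false (hxy : x * y = y * x) (P₁ : Pr (Nat.card F) l₁ d₁) (P₂ : Pr (Nat.card F) l₂ d₂)
    (hx : x ^ l₁ = 1) (hy : y ^ l₂ = 1) (hx1 : x ≠ 1) (hy1 : y ≠ 1) (h : finrank F V < Nat.lcm d₁ d₂)
    (hs : finrank F V < d₁ + d₂) : False := by
  have h1 := comm_dims hxy P₁ P₂ hx hy h
  have h2 := le_mv P₁ hx hx1
  have h3 := le_mv P₂ hy hy1
  omega

theorem le_mv_form {B : V →ₗ[F] V →ₗ[F] F} (alt : ∀ v, B v v = 0) (nd : ∀ w, (∀ v, B w v = 0) → w = 0)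
    (P₁ : Pr (Nat.card F) l₁ d₁) (hxB : ∀ v w, B (x v) (x w) = B v w) (hx : x ^ l₁ = 1) (hx1 : x ≠ 1) :
    Nat.lcm 2 d₁ ≤ finrank F (mv x) ∧ Nat.lcm 2 d₁ ∣ finrank F (mv x) := by
  have h := Nat.lcm_dvd (even_mv alt nd hxB P₁.cast_ne_zero hx).two_dvd (dvd_mv P₁ hx)
  refine ⟨Nat.le_of_dvd ?_ h, h⟩
  rw [pos_iff_ne_zero]
  intro h
  exact mv_ne_bot hx1 (Submodule.finrank_eq_zero.1 h)

theorem comm_false_form {B : V →ₗ[F] V →ₗ[F] F} (alt : ∀ v, B v v = 0) (nd : ∀ w, (∀ v, B w v = 0) → w = 0)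
    (hxB : ∀ v w, B (x v) (x w) = B v w) (hyB : ∀ v w, B (y v) (y w) = B v w)
    (hxy : x * y = y * x) (P₁ : Pr (Nat.card F) l₁ d₁) (P₂ : Pr (Nat.card F) l₂ d₂)
    (hx : x ^ l₁ = 1) (hy : y ^ l₂ = 1) (hx1 : x ≠ 1) (hy1 : y ≠ 1) (h : finrank F V < Nat.lcm d₁ d₂)
    (hs : finrank F V < Nat.lcm 2 d₁ + Nat.lcm 2 d₂) : False := by
  have h1 := comm_dims hxy P₁ P₂ hx hy h
  have h2 := (le_mv_form alt nd P₁ hxB hx hx1).1
  have h3 := (le_mv_form alt nd P₂ hyB hy hy1).1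
  omega

end comm

section order

variable {G : Type*} [Group G]

/-- an element of order `l₁ l₂` gives commuting elements of orders `l₁`, `l₂` -/
theorem exists_pair {z : G} {l₁ l₂ : ℕ} (hz : orderOf z = l₁ * l₂) (h1 : 0 < l₁) (h2 : 0 < l₂) :
    ∃ x y : G, orderOf x = l₁ ∧ orderOf y = l₂ ∧ x * y = y * x := by
  refine ⟨z ^ l₂, z ^ l₁, ?_, ?_, ((Commute.refl z).pow_pow _ _).eq⟩
  · rw [orderOf_pow_of_dvd h2.ne' (by rw [hz]; exact dvd_mul_left _ _), hz, Nat.mul_div_cancel _ h2]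
  · rw [orderOf_pow_of_dvd h1.ne' (by rw [hz]; exact dvd_mul_right _ _), hz, Nat.mul_div_cancel_left _ h1]

variable [Finite F] [FiniteDimensional F V] {l₁ l₂ d₁ d₂ : ℕ}

/-- **no element of order `l₁ l₂` in a linear group** -/
theorem noOrd_lin (ρ : G →* (V ≃ₗ[F] V)) (hρ : Function.Injective ρ) (P₁ : Pr (Nat.card F) l₁ d₁)
    (P₂ : Pr (Nat.card F) l₂ d₂) (h : finrank F V < Nat.lcm d₁ d₂) (hs : finrank F V < d₁ + d₂) (z : G) :
    orderOf z ≠ l₁ * l₂ := by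
  intro hz
  obtain ⟨x, y, hx, hy, hxy⟩ := exists_pair hz P₁.prime.pos P₂.prime.pos
  refine comm_false (x := ρ x) (y := ρ y) (by rw [← map_mul, hxy, map_mul]) P₁ P₂ ?_ ?_ ?_ ?_ h hs
  · rw [← map_pow, ← hx, pow_orderOf_eq_one, map_one]
  · rw [← map_pow, ← hy, pow_orderOf_eq_one, map_one]
  · intro h1
    rw [hρ (h1.trans (map_one ρ).symm), orderOf_one] at hx
    exact P₁.prime.one_lt.ne hx
  · intro h1
    rw [hρ (h1.trans (map_one ρ).symm), orderOf_one] at hy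
    exact P₂.prime.one_lt.ne hy

/-- **no element of order `l₁ l₂` in a group preserving an alternating form** -/
theorem noOrd_form {B : V →ₗ[F] V →ₗ[F] F} (alt : ∀ v, B v v = 0) (nd : ∀ w, (∀ v, B w v = 0) → w = 0)
    (ρ : G →* (V ≃ₗ[F] V)) (hρ : Function.Injective ρ) (hB : ∀ g v w, B (ρ g v) (ρ g w) = B v w)
    (P₁ : Pr (Nat.card F) l₁ d₁) (P₂ : Pr (Nat.card F) l₂ d₂) (h : finrank F V < Nat.lcm d₁ d₂)
    (hs : finrank F V < Nat.lcm 2 d₁ + Nat.lcm 2 d₂) (z : G) : orderOf z ≠ l₁ * l₂ := by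
  intro hz
  obtain ⟨x, y, hx, hy, hxy⟩ := exists_pair hz P₁.prime.pos P₂.prime.pos
  refine comm_false_form alt nd (x := ρ x) (y := ρ y) (hB x) (hB y) (by rw [← map_mul, hxy, map_mul]) P₁ P₂
    ?_ ?_ ?_ ?_ h hs
  · rw [← map_pow, ← hx, pow_orderOf_eq_one, map_one]
  · rw [← map_pow, ← hy, pow_orderOf_eq_one, map_one]
  · intro h1
    rw [hρ (h1.trans (map_one ρ).symm), orderOf_one] at hx
    exact P₁.prime.one_lt.ne hx
  · intro h1
    rw [hρ (h1.trans (map_one ρ).symm), orderOf_one] at hy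
    exact P₂.prime.one_lt.ne hy

end order

end Cfsg.Agent.H25.Cov
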